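import Cfsg.Agent.E8A.Two.Mk

/-!
# Explicit even permutations, conjugacy, cyclic subgroups, cycle types (helper44)
-/

set_option autoImplicit false
set_option maxRecDepth 100000

namespace Cfsg.Agent.E8A.Two.Mk

open Module Equiv Equiv.Perm
open Cfsg.Agent.R2.T1.Odd Cfsg.Agent.R2.T1.Msk
open Cfsg.Agent.H952.F4 (ev)

/-- a permutation -/
def x3 : SW := [(0, 1), (1, 2)]

/-- a permutation -/
def y3 : SW := [(3, 4), (4, 5)]

/-- a permutation -/
def x33 : SW := [(0, 1), (1, 2), (3, 4), (4, 5)]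

/-- a permutation -/
def c5 : SW := [(0, 1), (1, 2), (2, 3), (3, 4)]

/-- a permutation -/
def z5 : SW := [(6, 7), (7, 8), (8, 9), (9, 10)]

/-- a permutation -/
def s7 : SW := [(0, 1), (1, 2), (2, 3), (3, 4), (4, 5), (5, 6)]

/-- a permutation -/
def s7i : SW := [(5, 6), (4, 5), (3, 4), (2, 3), (1, 2), (0, 1)]

/-- a permutation -/
def x15 : SW := [(0, 1), (1, 2), (3, 4), (4, 5), (5, 6), (6, 7)]

/-- a permutation -/
def x333 : SW := [(0, 1), (1, 2), (3, 4), (4, 5), (6, 7), (7, 8)]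

/-- a permutation -/
def n9 : SW := [(0, 1), (1, 2), (2, 3), (3, 4), (4, 5), (5, 6), (6, 7), (7, 8)]

/-- a permutation -/
def w11 : SW := [(0, 1), (1, 2), (2, 3), (3, 4), (4, 5), (5, 6), (6, 7), (7, 8), (8, 9), (9, 10)]

/-- a permutation -/
def w11i : SW := [(9, 10), (8, 9), (7, 8), (6, 7), (5, 6), (4, 5), (3, 4), (2, 3), (1, 2), (0, 1)]

/-- a permutation -/
def c55 : SW := [(0, 1), (1, 2), (2, 3), (3, 4), (6, 7), (7, 8), (8, 9), (9, 10)]

/-- a permutation -/
def x335 : SW := [(0, 1), (1, 2), (3, 4), (4, 5), (6, 7), (7, 8), (8, 9), (9, 10)]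

/-- `a b = c d` -/
def eqP (m : ℕ) (a b c d : SW) : Bool := vl m a && vl m b && vl m c && vl m d && cd m (a ++ b) == cd m (c ++ d)

section
variable {n m : ℕ} [NeZero n]

theorem P_eqP (hm : m ≤ n) {a b c d : SW} (h : eqP m a b c d = true) : P n a * P n b = P n c * P n d := by
  simp only [eqP, Bool.and_eq_true, beq_iff_eq] at h
  obtain ⟨⟨⟨⟨h1, h2⟩, h3⟩, h4⟩, h5⟩ := h
  rw [← P_append hm h1 h2, ← P_append hm h3 h4, P_eq_iff hm (vl_append h1 h2) (vl_append h3 h4)]
  exact h5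

theorem P_cj (hm : m ≤ n) {a r : SW} (c : SW) (h : eqP m a c c r = true) : P n c * P n r * (P n c)⁻¹ = P n a := by
  rw [← P_eqP hm h, mul_inv_cancel_right]

theorem P_mul (hm : m ≤ n) {a b c : SW} (h : eqP m a b c [] = true) : P n a * P n b = P n c := by
  rw [P_eqP hm h, P_nil, mul_one]

theorem P_inv (hm : m ≤ n) {a b : SW} (h : eqP m a b [] [] = true) : (P n a)⁻¹ = P n b := by
  rw [inv_eq_iff_mul_eq_one, P_mul hm h, P_nil]

theorem P_rat (hm : m ≤ n) {r : SW} (k : ℕ) (c : SW) (h : eqP m (pwl r k) c c r = true) : IsConj (P n r) (P n r ^ k) := by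
  have h1 : vl m r = true := by
    simp only [eqP, Bool.and_eq_true] at h
    exact h.1.2
  rw [← P_pwl hm h1]
  exact isConj_iff.2 ⟨_, P_cj hm c h⟩

theorem P_ne_one (hm : m ≤ n) {a : SW} (h : (vl m a && !(cd m a == cd m [])) = true) : P n a ≠ 1 := by
  simp only [Bool.and_eq_true, Bool.not_eq_true', beq_eq_false_iff_ne] at h
  rw [← P_nil]
  exact P_ne hm h.1 rfl h.2

theorem card_supp (hm : m ≤ n) {a : SW} (h : vl m a = true) :
    ((P n a : ↥(alternatingGroup (Fin n))) : Perm (Fin n)).support.card = ((Finset.range m).filter fun i => ap a i ≠ i).card := by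
  have h1 := (vl_iff.1 h).2
  rw [coe_P hm h]
  refine Finset.card_bij (fun i _ => i.val) (fun i hi => ?_) (fun i _ j _ e => Fin.ext e) fun k hk => ?_
  · have h2 : ap a i.val ≠ i.val := fun e => mem_support.1 hi (Fin.ext ((pm_apply (h1.mono hm) i).trans e))
    refine Finset.mem_filter.2 ⟨Finset.mem_range.2 ?_, h2⟩
    by_contra h3
    exact h2 (ap_ge h1 (by omega))
  · obtain ⟨h2, h3⟩ := Finset.mem_filter.1 hk
    have h4 : k < n := (Finset.mem_range.1 h2).trans_le hm
    exact ⟨⟨k, h4⟩, mem_support.2 fun e => h3 ((pm_apply (h1.mono hm) ⟨k, h4⟩).symm.trans (congrArg Fin.val e)), rfl⟩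

theorem type_P (hm : m ≤ n) {a : SW} {p k : ℕ} (hp : p.Prime) (h : chkO m a p = true)
    (hk : ((Finset.range m).filter fun i => ap a i ≠ i).card = k * p) :
    ((P n a : ↥(alternatingGroup (Fin n))) : Perm (Fin n)).cycleType = Multiset.replicate k p := by
  have h1 : vl m a = true := by
    simp only [chkO, Bool.and_eq_true] at h
    exact h.1.1.1
  have h2 : orderOf ((P n a : ↥(alternatingGroup (Fin n))) : Perm (Fin n)) = p := by
    rw [Subgroup.orderOf_coe, orderOf_P hm h]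
  obtain ⟨j, hj⟩ := cycleType_prime_order (σ := ((P n a : ↥(alternatingGroup (Fin n))) : Perm (Fin n))) (h2 ▸ hp)
  have h3 := sum_cycleType ((P n a : ↥(alternatingGroup (Fin n))) : Perm (Fin n))
  rw [card_supp hm h1, hk, hj, h2, Multiset.sum_replicate, smul_eq_mul] at h3
  rw [hj, h2, Nat.eq_of_mul_eq_mul_right hp.pos h3]

omit [NeZero n] in
theorem conj_type {a b : ↥(alternatingGroup (Fin n))} (h : (a : Perm (Fin n)).cycleType = (b : Perm (Fin n)).cycleType)
    (h2 : (a : Perm (Fin n)).cycleType.sum + 2 ≤ n) : IsConj a b :=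
  alternatingGroup.isConj_of (isConj_iff_cycleType_eq.2 h) (by rwa [← sum_cycleType, Fintype.card_fin])

theorem type_x3 (hn : 8 ≤ n) : ((P n x3 : ↥(alternatingGroup (Fin n))) : Perm (Fin n)).cycleType = {3} :=
  type_P (k := 1) hn Nat.prime_three (by decide +kernel) (by decide +kernel)

theorem type_x33 (hn : 8 ≤ n) : ((P n x33 : ↥(alternatingGroup (Fin n))) : Perm (Fin n)).cycleType = {3, 3} :=
  type_P (k := 2) hn Nat.prime_three (by decide +kernel) (by decide +kernel)

theorem type_c5 (hn : 8 ≤ n) : ((P n c5 : ↥(alternatingGroup (Fin n))) : Perm (Fin n)).cycleType = {5} :=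
  type_P (k := 1) hn Nat.prime_five (by decide +kernel) (by decide +kernel)

variable {F : Type*} [Field F] {W : Type*} [AddCommGroup W] [Module F W]
  (ρ : Representation F ↥(alternatingGroup (Fin n)) W)

theorem evP (hm : m ≤ n) {a r : SW} (c : SW) (h : eqP m a c c r = true) : ev (ρ (P n a)) 1 = ev (ρ (P n r)) 1 := by
  rw [← P_cj hm c h, H944.E6T.ev_conj]

theorem mem_Tg {gens : List SW} {v : W} : v ∈ inv ρ (Tg n gens) ↔ ∀ g ∈ gens, ρ (P n g) v = v := by
  refine mem_inv_closure.trans ⟨fun h g hg => h _ ⟨g, hg, rfl⟩, ?_⟩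
  rintro h _ ⟨g, hg, rfl⟩
  exact h g hg

theorem fr_one (g : SW) : finrank F ↥(inv ρ (Tg n [g])) = ev (ρ (P n g)) 1 := by
  have h : inv ρ (Tg n [g]) = Module.End.eigenspace (ρ (P n g)) 1 := by
    ext v
    rw [mem_Tg, Module.End.mem_eigenspace_iff, one_smul, List.forall_mem_singleton]
  rw [h]
  rfl

theorem fr_two [FiniteDimensional F W] (g g' : SW) : finrank F ↥(inv ρ (Tg n [g, g'])) ≤ ev (ρ (P n g * P n g')) 1 := by
  refine Submodule.finrank_mono fun v hv => ?_
  rw [mem_Tg] at hv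
  rw [Module.End.mem_eigenspace_iff, one_smul, map_mul, Module.End.mul_apply, hv g' (by simp), hv g (by simp)]

omit [NeZero n] in
theorem ev_inv (x : ↥(alternatingGroup (Fin n))) : ev (ρ x⁻¹) 1 = ev (ρ x) 1 := by
  have h : ∀ y : ↥(alternatingGroup (Fin n)), Module.End.eigenspace (ρ y) 1 ≤ Module.End.eigenspace (ρ y⁻¹) 1 := by
    intro y v hv
    rw [Module.End.mem_eigenspace_iff, one_smul] at hv ⊢
    conv_lhs => rw [← hv]
    rw [← Module.End.mul_apply, ← map_mul, inv_mul_cancel, map_one]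
    rfl
  have h1 := h x⁻¹
  rw [inv_inv] at h1
  unfold ev
  rw [le_antisymm h1 (h x)]

end

end Cfsg.Agent.E8A.Two.Mk
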