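import Cfsg.Agent.E8A.Two.Iface

/-!
# S5772 in characteristic 2: the boxes TB, TC for all degrees (helper44)
-/

set_option autoImplicit false

namespace Cfsg.Agent.E8A.Two

open Cfsg Cfsg.Lie Module
open Cfsg.Agent.H952.F4 (MaxAlt ev)

universe u

/-- **TBa**: 3-cycles with centralizer `A₈`, any degree at least 8 -/
def TBa : Prop := ∀ (F : Type u) [Field F] [Finite F] [CharP F 2] (H : Subgroup (G8 F)) (n : ℕ)
  (φ : Alt n →* G8 F), MaxAlt H n φ → 8 ≤ n → NoFx φ → Dm φ {3} 80 → Dm φ {3, 3} 92 → False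

/-- **TCa**: 3-cycles with centralizer `D₇T₁`, products of two with centralizer `A₈`, any degree at least 8 -/
def TCa : Prop := ∀ (F : Type u) [Field F] [Finite F] [CharP F 2] (H : Subgroup (G8 F)) (n : ℕ)
  (φ : Alt n →* G8 F), MaxAlt H n φ → 8 ≤ n → NoFx φ → Dm φ {3} 92 → Dm φ {3, 3} 80 → Dm φ {5} 48 → False

end Cfsg.Agent.E8A.Two
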