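import Cfsg.Agent.E8A.Two.Geo
import Cfsg.Agent.E8A.Two.I11
import Cfsg.Agent.E8A.Two.Iface2
import Cfsg.Agent.E8A.Inf.Tab2

/-!
# S5772 in characteristic 2, degree at least 8: reduction to the boxes `TBa`, `TCa`, `TD` (helper44)

* `d_big` : 3-cycles of type 134 in degree at least 11;
* `h2_of`.
-/

set_option autoImplicit false
set_option maxRecDepth 100000

namespace Cfsg.Agent.E8A.Two

open Cfsg Cfsg.Lie Module Equiv Equiv.Perm
open Cfsg.Agent.H952.F4 (MaxAlt ev)
open Cfsg.Agent.R2.T1.Odd Cfsg.Agent.E8A.Two.Mk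

universe u

variable {F : Type u} [Field F] [Finite F] {n m : ℕ} [NeZero n] {φ : Alt n →* G8 F}

omit [Finite F] in
theorem dm_of {l : SW} {c : Multiset ℕ} (hc : ((P n l : Alt n) : Perm (Fin n)).cycleType = c) (h : c.sum + 2 ≤ n) :
    Dm φ c (ev (LK F (φ (P n l))) 1) := fun _ ha =>
  Inf.ev_isConj (φ.map_isConj (conj_type (hc.trans ha.symm) (by rwa [hc]))) 1

omit [Finite F] [NeZero n] in
theorem fr_em (T : Subgroup (Alt n)) :
    finrank (Kb F) ↥(inv ((LK (Kb F)).comp (emb0.comp φ)) T) = finrank F ↥(inv ((LK F).comp φ) T) := by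
  rw [inv_eq_invariants, inv_eq_invariants]
  exact Inf.finrank_inv_em (algebraMap F (Kb F)) (φ.comp T.subtype)

omit [Finite F] in
theorem ne_one (hφ : Function.Injective φ) (hm : m ≤ n) {a : SW} (h : (vl m a && !(cd m a == cd m [])) = true) :
    φ (P n a) ≠ 1 := fun e => P_ne_one hm h (hφ (e.trans (map_one φ).symm))

omit [Finite F] in
theorem pw_one (hm : m ≤ n) {a : SW} {k : ℕ} (h : vl m a = true) (hc : cd m (pwl a k) = cd m []) : φ (P n a) ^ k = 1 := by
  rw [← map_pow, P_pow_one hm h hc, map_one]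

omit [Finite F] in
theorem rat_of (hm : m ≤ n) {r : SW} (k : ℕ) (c : SW) (h : eqP m (pwl r k) c c r = true) :
    IsConj (φ (P n r)) (φ (P n r) ^ k) := by
  rw [← map_pow]
  exact φ.map_isConj (P_rat hm k c h)

variable [CharP F 2]

theorem tab15 (hn : 8 ≤ n) :
    [ev (LK F (φ (P n x15))) 1, ev (LK F (φ (P n c5))) 1, ev (LK F (φ (P n x3))) 1] ∈ Inf.T15r2 := by
  let ρ : Representation F (Alt n) (L8 F) := (LK F).comp φ
  have h := Inf.tab Inf.chk_T15r2 (odd_ne F (by norm_num)) (x := φ (P n x15)) (pw_one hn (by decide) (by decide))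
    (List.forall_mem_singleton.2 (rat_of hn 2 [(1, 2), (4, 5), (5, 7), (7, 6)] (by decide)))
  simp only [List.map, pow_one, ← map_pow] at h
  rw [← P_pwl hn (l := x15) (by decide), ← P_pwl hn (l := x15) (by decide)] at h
  rwa [← show ev (LK F (φ (P n (pwl x15 3)))) 1 = ev (LK F (φ (P n c5))) 1 from
      evP ρ hn (r := c5) [(0, 7), (1, 5), (2, 3), (3, 6)] (by decide),
    ← show ev (LK F (φ (P n (pwl x15 5)))) 1 = ev (LK F (φ (P n x3))) 1 from
      evP ρ hn (r := x3) [(0, 2), (3, 5)] (by decide)]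

theorem tab335 (hn : 11 ≤ n) :
    [ev (LK F (φ (P n x335))) 1, ev (LK F (φ (P n c5))) 1, ev (LK F (φ (P n x33))) 1] ∈ Inf.T15r2 := by
  let ρ : Representation F (Alt n) (L8 F) := (LK F).comp φ
  have h := Inf.tab Inf.chk_T15r2 (odd_ne F (by norm_num)) (x := φ (P n x335)) (pw_one hn (by decide) (by decide))
    (List.forall_mem_singleton.2 (rat_of hn 2 [(0, 4), (1, 3), (2, 5), (6, 10), (10, 8), (8, 9)] (by decide)))
  simp only [List.map, pow_one, ← map_pow] at h
  rw [← P_pwl hn (l := x335) (by decide), ← P_pwl hn (l := x335) (by decide)] at h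
  rwa [← show ev (LK F (φ (P n (pwl x335 3)))) 1 = ev (LK F (φ (P n c5))) 1 from
      evP ρ hn (r := c5) [(0, 10), (1, 8), (2, 6), (3, 9), (4, 7), (7, 5)] (by decide),
    ← show ev (LK F (φ (P n (pwl x335 5)))) 1 = ev (LK F (φ (P n x33))) 1 from
      evP ρ hn (r := x33) [(1, 2), (4, 5)] (by decide)]

theorem d333 (hn : 11 ≤ n) (hφ : Function.Injective φ) : ev (LK F (φ (P n x333))) 1 = 86 := by
  let ρ : Representation F (Alt n) (L8 F) := (LK F).comp φ
  have h := Inf.tab Inf.chk_T9r4 (odd_ne F (by norm_num)) (x := φ (P n n9)) (pw_one hn (by decide) (by decide))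
    (List.forall_mem_singleton.2 (rat_of hn 4 [(1, 4), (4, 7), (2, 8), (8, 5)] (by decide)))
  simp only [List.map, pow_one, ← map_pow] at h
  rw [← P_pwl hn (l := n9) (by decide), show ev (LK F (φ (P n (pwl n9 3)))) 1 = ev (LK F (φ (P n x333))) 1 from
    evP ρ hn (r := x333) [(0, 5), (1, 8), (4, 6), (9, 10)] (by decide)] at h
  have h1 : ev (LK F (φ (P n x333))) 1 ≠ 248 := fun e => ne_one hφ hn (by decide) (Inf.eq_one_of_ev e)
  simp only [Inf.T9r4, List.mem_cons, List.cons.injEq, and_true, List.not_mem_nil, or_false] at h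
  omega

/-- **3-cycles of type 134 in degree at least 11** -/
theorem d_big (hn : 11 ≤ n) (hφ : Function.Injective φ) (hfx : NoFx φ) (h3 : ev (LK F (φ (P n x3))) 1 = 134)
    (h33 : ev (LK F (φ (P n x33))) 1 = 92) : False := by
  let ρ : Representation F (Alt n) (L8 F) := (LK F).comp φ
  have k1 := tab15 (φ := φ) (by omega)
  have k2 := tab335 (φ := φ) hn
  have k3 := d333 hn hφ
  have k4 := Inf.eleven_rat (by exact_mod_cast odd_ne F (k := 11) (by norm_num)) (x := φ (P n w11))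
    (pw_one hn (by decide) (by decide)) (ne_one hφ hn (by decide))
    (rat_of hn 3 [(1, 3), (3, 9), (9, 5), (5, 4), (2, 6), (6, 7), (7, 10), (10, 8)] (by decide))
  have k5 := five_rat' (by exact_mod_cast odd_ne F (k := 5) (by norm_num)) (x := φ (P n c55))
    (pw_one hn (by decide) (by decide)) (ne_one hφ hn (by decide))
    (rat_of hn 2 [(1, 2), (2, 4), (4, 3), (7, 8), (8, 10), (10, 9)] (by decide))
  have k6 : ev (LK F (φ (P n c5))) 1 ≠ 248 := fun e => ne_one hφ hn (by decide) (Inf.eq_one_of_ev e)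
  have i1 : 10 * ev (LK F (φ (P n x333))) 1 + 6 * ev (LK F (φ (P n w11))) 1 ≤ 15 * ev (LK F (φ (P n c55))) 1 +
    finrank F (L8 F) := i11 ρ hn
  have i2 : 2 * ev (LK F (φ (P n c5))) 1 + 4 * ev (LK F (φ (P n c55))) 1 ≤ 5 * ev (LK F (φ (P n x335))) 1 +
    finrank F (L8 F) := i6 ρ hn
  have i3 : 3 * finrank F ↥(inv ρ (Tg n [x3, y3, z5])) + ev (LK F (φ (P n c5))) 1 =
    2 * ev (LK F (φ (P n x15))) 1 + 2 * ev (LK F (φ (P n x335))) 1 := f45 ρ hn
  rw [Inf.finrank_L8] at i1 i2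
  rw [h3] at k1
  rw [h33] at k2
  simp only [Inf.T15r2, List.mem_cons, List.cons.injEq, and_true, List.not_mem_nil, or_false] at k1 k2
  refine case_d (ψ := emb0.comp φ) hn (Inf.NoFx.em (algebraMap F (Kb F)) hfx) ((ev_emb0 _).trans h3) ?_
  rw [fr_em]
  show ev (LK (Kb F) (emb0 (φ (P n x15)))) 1 ≤ finrank F ↥(inv ρ (Tg n [x3, y3, z5])) + 2
  rw [ev_emb0]
  omega

end Cfsg.Agent.E8A.Two

namespace Cfsg.Agent.E8A.Two

open Cfsg Cfsg.Lie Module Equiv Equiv.Perm
open Cfsg.Agent.H952.F4 (MaxAlt ev)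
open Cfsg.Agent.R2.T1.Odd Cfsg.Agent.E8A.Two.Mk

universe u

/-- **characteristic 2, degree at least 8** -/
theorem all2_of (hB : TBa.{u}) (hC : TCa.{u}) (hD : TD.{u}) (n : ℕ) (hn : 8 ≤ n) : CASE.{u} n fun p => p = 2 := by
  intro F _ _ p _ _ hp H φ hM hfx
  subst hp
  have : NeZero n := ⟨by omega⟩
  let ρ : Representation F (Alt n) (L8 F) := (LK F).comp φ
  have hφ := hM.inj
  have e33 : P n x3 * P n y3 = P n x33 := P_mul hn (by decide)
  have k1 := t33 three_ne (x := φ (P n x3)) (y := φ (P n y3)) (pw_one hn (by decide) (by decide))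
    (pw_one hn (by decide) (by decide)) (Commute.map (P_eqP hn (by decide)) φ) (ne_one hφ hn (by decide))
    (by rw [← map_mul, e33]; exact ne_one hφ hn (by decide))
    (evP ρ hn (a := y3) (r := x3) [(0, 4), (4, 1), (1, 5), (2, 3)] (by decide)) (by
      rw [← map_inv, ← map_mul, ← map_mul, e33, P_inv hn (b := [(4, 5), (3, 4)]) (by decide),
        P_mul hn (c := [(0, 1), (1, 2), (4, 5), (3, 4)]) (by decide)]
      exact evP ρ hn (r := x33) [(3, 4), (6, 7)] (by decide))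
  rw [← map_mul, e33] at k1
  have k2 := five_rat' (by exact_mod_cast odd_ne F (k := 5) (by norm_num)) (x := φ (P n c5))
    (pw_one hn (by decide) (by decide)) (ne_one hφ hn (by decide))
    (rat_of hn 2 [(0, 1), (1, 3), (3, 2), (6, 7)] (by decide))
  have k3 := Inf.seven_rat (by exact_mod_cast odd_ne F (k := 7) (by norm_num)) (x := φ (P n s7))
    (pw_one hn (by decide) (by decide)) (ne_one hφ hn (by decide))
    (rat_of hn 2 [(1, 2), (2, 4), (3, 6), (6, 5)] (by decide))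
  have k4 := tab15 (φ := φ) hn
  have k5 : 3 * ev (LK F (φ (P n c5))) 1 + 2 * ev (LK F (φ (P n s7))) 1 + finrank F (L8 F) ≤
    6 * ev (LK F (φ (P n x33))) 1 := i7 ρ (by omega)
  rw [Inf.finrank_L8] at k5
  have d3 := dm_of (φ := φ) (type_x3 hn) (by simp; omega)
  have d33 := dm_of (φ := φ) (type_x33 hn) (by simp; omega)
  have d5 := dm_of (φ := φ) (type_c5 hn) (by simp; omega)
  rcases k1 with ⟨h3, h33⟩ | ⟨h3, h33⟩ | ⟨h3, h33⟩ | ⟨h3, h33⟩ | ⟨h3, h33⟩
  · exact case_a (ψ := emb0.comp φ) hn (Inf.NoFx.em (algebraMap F (Kb F)) hfx) ((ev_emb0 _).trans h3)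
      ((ev_emb0 _).trans h33)
  · exact hB F H n φ hM hn hfx (h3 ▸ d3) (h33 ▸ d33)
  · exact hC F H n φ hM hn hfx (h3 ▸ d3) (h33 ▸ d33) ((show ev (LK F (φ (P n c5))) 1 = 48 by omega) ▸ d5)
  · by_cases h10 : n ≤ 10
    · rw [h3] at k4
      simp only [Inf.T15r2, List.mem_cons, List.cons.injEq, and_true, List.not_mem_nil, or_false] at k4
      exact hD F H n φ hM hn h10 hfx (h3 ▸ d3) (h33 ▸ d33) ((show ev (LK F (φ (P n c5))) 1 = 68 by omega) ▸ d5)
    · exact d_big (by omega) hφ hfx h3 h33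
  · rw [h3] at k4
    simp only [Inf.T15r2, List.mem_cons, List.cons.injEq, and_true, List.not_mem_nil, or_false] at k4
    omega

/-- the form which is used in the assembly -/
theorem h2_of (hB : TBa.{u}) (hC : TCa.{u}) (hD : TD.{u}) : ∀ n, 8 ≤ n → n ≤ 17 → CASE.{u} n fun p => p = 2 :=
  fun n hn _ => all2_of hB hC hD n hn

end Cfsg.Agent.E8A.Two
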