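import Cfsg.Agent.E8A.Two.Hx
import Cfsg.Agent.E8A.Two.El
import Cfsg.Agent.E8A.Asm.Iface
import Cfsg.Agent.R2.T1.T2p.GenA

/-!
# S5772 in characteristic 2: two cases with a fixed vector (helper44)

* `gen_top` : generation of the alternating group;
* `case_a` : 3-cycles of type 92, products of two of type 134;
* `ef` : the root vectors of an element of type 134; `cen_all`, `case_d` : degree at least 11.
-/

set_option autoImplicit false
set_option maxRecDepth 100000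

namespace Cfsg.Agent.E8A.Two

open Cfsg Cfsg.Lie Module Equiv Equiv.Perm
open Cfsg.Agent.H952.F4 (ev)
open Cfsg.Agent.H288.E8L (Q8 wt)
open Cfsg.Agent.E8A.Reg5.Cls (ex dz Cj)
open Cfsg.Agent.R2.T1.Odd Cfsg.Agent.E8A.Two.Mk

universe u

section perm

variable {n m : ℕ} [NeZero n]

theorem gen_top (hm : m ≤ n) (S : Subgroup (Alt n)) (T : List ℕ) (p q : ℕ)
    (h0 : p < m ∧ q < m ∧ p ≠ q ∧ p ∉ T ∧ q ∉ T ∧ ∀ k ∈ T, k < m)
    (h1 : ∀ a : Alt n, (∀ i : Fin n, i.val ∈ T → (a : Perm (Fin n)) i = i) → a ∈ S)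
    (h2 : ∀ k ∈ T, P n [(p, q), (p, k)] ∈ S) (a : Alt n) : a ∈ S := by
  obtain ⟨hp, hq, hpq, hpT, hqT, hT⟩ := h0
  refine R2.T1.T2p.gen_alt S (fun _ => True) (p0 := Fin.ofNat n p) (p1 := Fin.ofNat n q)
    (fun e => hpq (ofNat_inj (by omega) (by omega) e)) trivial (fun k _ _ b hb => ?_) a fun i hi => absurd trivial hi
  by_cases hk : k.val ∈ T
  · have h3 : vl m [(p, q), (p, k.val)] = true := vl_iff.2 ⟨by simp, by
      intro x hx
      rcases List.mem_pair.1 hx with rfl | rfl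
      · exact ⟨hp, hq, hpq⟩
      · exact ⟨hp, hT _ hk, fun e => hpT (by rw [show p = k.val from e]; exact hk)⟩⟩
    have h4 : b = P n [(p, q), (p, k.val)] := by
      apply Subtype.ext
      rw [coe_P hm h3, pm_cons, pm_cons, pm_nil, mul_one, hb]
      congr 2
      exact Fin.ext (val_ofNat' k.2).symm
    rw [h4]
    exact h2 _ hk
  · refine h1 b fun i hi => ?_
    have h3 : i ≠ Fin.ofNat n p := fun e => hpT (by rwa [e, val_ofNat' (by omega)] at hi)
    have h4 : i ≠ Fin.ofNat n q := fun e => hqT (by rwa [e, val_ofNat' (by omega)] at hi)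
    have h5 : i ≠ k := fun e => hk (e ▸ hi)
    rw [hb, Perm.mul_apply, swap_apply_of_ne_of_ne h3 h5, swap_apply_of_ne_of_ne h3 h4]

theorem comm_of_fix (hm : m ≤ n) {l : SW} {T : List ℕ} (h : vl m l = true ∧ ∀ i < m, i ∉ T → ap l i = i) {a : Alt n}
    (ha : ∀ i : Fin n, i.val ∈ T → (a : Perm (Fin n)) i = i) : Commute a (P n l) := by
  apply Subtype.ext
  refine (Perm.Disjoint.commute fun i => ?_).eq
  by_cases hi : i.val ∈ T
  · exact Or.inl (ha i hi)
  · refine Or.inr (Fin.ext ?_)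
    rw [coe_P hm h.1, pm_apply ((vl_iff.1 h.1).2.mono hm)]
    by_cases h1 : i.val < m
    · exact h.2 _ h1 hi
    · exact ap_ge (vl_iff.1 h.1).2 (by omega)

end perm

section

variable {K : Type u} [Field K] {x : G8 K} {h : L8 K} {ζ : K}

theorem wt_seven : ∀ j : chevE8.Idx, (2 ∣ wt j 7 → wt j 7 = 0 ∨ wt j 7 = 2 ∨ wt j 7 = -2) ∧
    (wt j 7 = 2 ↔ j = Sum.inr ⟨239, by decide⟩) ∧ (wt j 7 = -2 ↔ j = Sum.inr ⟨0, by decide⟩) := by decide +kernel

theorem line_fix {g u : G8 K} {e : L8 K} (he : e ≠ 0) (hg : ∃ c : K, act g e = c • e) (hu : ∃ c : K, act u e = c • e)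
    (hc : g * u = u * (g * g)) : act g e = e := by
  obtain ⟨a, ha⟩ := hg
  obtain ⟨b, hb⟩ := hu
  have h1 := congrArg (fun t => act t e) hc
  simp only [act_mul, ha, hb, act_smul, smul_smul] at h1
  have ha0 : a ≠ 0 := fun h0 => he (act_eq_zero (by rw [ha, h0, zero_smul]))
  have hb0 : b ≠ 0 := fun h0 => he (act_eq_zero (by rw [hb, h0, zero_smul]))
  have h2 := smul_left_injective K he h1
  have h3 : a = 1 := by
    apply mul_left_cancel₀ (mul_ne_zero ha0 hb0)
    linear_combination -h2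
  rw [ha, h3, one_smul]

variable [CharP K 2]

theorem ef_dz (hζ : IsPrimitiveRoot ζ 3) (ht : mx x = dz ζ (Pi.single 7 1)) (H : Hx x h) :
    (∀ k : ℤ, k = 2 ∨ k = -2 → ∃ e : L8 K, e ≠ 0 ∧ act x e = ζ ^ k • e ∧ br h e = 0 ∧
      ∀ v, act x v = ζ ^ k • v → br h v = 0 → ∃ c : K, v = c • e) ∧
    ∀ v, br h v = 0 → adm (v + act x v) * adm (v + act x v) = adm (v + act x v) → act x v = v := by
  have h0 := hζ.ne_zero (by norm_num)
  obtain ⟨h', k1, k2⟩ := exists_hm (K := K) (Pi.single 7 1)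
  obtain ⟨k3, k4⟩ := H.spec ht
  have k5 : h = h' := inT_ext k3 k1 fun j => by
    rw [k4, k2, ex_single]
    split_ifs with hj
    · rw [hj, Tits.Roots.sr_self, Int.cast_one]
    · rw [Tits.Roots.sr_ne (Ne.symm hj), Int.cast_zero]
  subst k5
  have k6 : ∀ v, br h v = 0 → ∀ j, v j ≠ 0 → 2 ∣ wt j 7 := fun v hv j hj => by
    have h1 := congrFun hv j
    rw [br_T k1, k2, ex_single, Pi.zero_apply, mul_eq_zero, CharP.intCast_eq_zero_iff K 2] at h1
    exact h1.resolve_right hj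
  refine ⟨fun k hk => ?_, fun v hv hd => ?_⟩
  · obtain ⟨r, hr⟩ : ∃ r, ∀ j, wt j 7 = k ↔ j = r := by
      rcases hk with rfl | rfl
      exacts [⟨_, fun j => (wt_seven j).2.1⟩, ⟨_, fun j => (wt_seven j).2.2⟩]
    refine ⟨ee K r, ee_ne_zero r, funext fun j => ?_, funext fun j => ?_, fun v h1 h2 => ⟨v r, funext fun j => ?_⟩⟩
    · rw [act_dz ht, ex_single, Pi.smul_apply, smul_eq_mul]
      by_cases hj : j = r
      · rw [(hr j).2 hj]
      · rw [ee_ne hj, mul_zero, mul_zero]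
    · rw [br_T k1, k2, ex_single, Pi.zero_apply]
      by_cases hj : j = r
      · rw [(hr j).2 hj, (CharP.intCast_eq_zero_iff K 2 k).2 (by omega), zero_mul]
      · rw [ee_ne hj, mul_zero]
    · rw [Pi.smul_apply, smul_eq_mul]
      by_cases hj : j = r
      · rw [hj, ee_self, mul_one]
      · rw [ee_ne hj, mul_zero]
        by_contra h3
        have h4 := congrFun h1 j
        rw [act_dz ht, ex_single, Pi.smul_apply, smul_eq_mul, mul_left_inj' h3, ← div_eq_one_iff_eq (zpow_ne_zero _ h0),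
          ← zpow_sub₀ h0, hζ.zpow_eq_one_iff_dvd] at h4
        have h5 := (wt_seven j).1 (k6 v h2 j h3)
        exact hj ((hr j).1 (by omega))
  · generalize hd' : v + act x v = d at hd
    have k7 : ∀ j, d j ≠ 0 → wt j 7 = 2 ∨ wt j 7 = -2 := fun j hj => by
      rw [← hd', Pi.add_apply, act_dz ht, ex_single] at hj
      have h1 : v j ≠ 0 := fun h1 => hj (by rw [h1, mul_zero, add_zero])
      refine ((wt_seven j).1 (k6 v hv j h1)).resolve_left fun h2 => hj ?_
      rw [h2, zpow_zero, one_mul, CharTwo.add_self_eq_zero]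
    have k8 : ∀ i j, adm d i j ≠ 0 → wt i 7 = wt j 7 + 2 ∨ wt i 7 = wt j 7 - 2 := fun i j hij => by
      obtain ⟨k, h1, h2⟩ := adm_wt hij
      have h3 := k7 k h1
      rw [h2, Pi.add_apply]
      omega
    have k9 : d = 0 := eq_zero_of_adm (Matrix.ext fun i j => by
      by_contra h1
      have h2 := k8 i j h1
      rw [← hd, Matrix.mul_apply] at h1
      obtain ⟨k, -, h3⟩ := Finset.exists_ne_zero_of_sum_ne_zero h1
      have h4 := k8 i k (left_ne_zero_of_mul h3)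
      have h5 := k8 k j (right_ne_zero_of_mul h3)
      omega)
    rw [← add_left_inj v, add_comm, hd', k9, add_self K]

/-- the root vectors -/
theorem ef (hζ : IsPrimitiveRoot ζ 3) (hc : Cj x ζ (Pi.single 7 1)) (H : Hx x h) :
    (∀ k : ℤ, k = 2 ∨ k = -2 → ∃ e : L8 K, e ≠ 0 ∧ act x e = ζ ^ k • e ∧ br h e = 0 ∧
      ∀ v, act x v = ζ ^ k • v → br h v = 0 → ∃ c : K, v = c • e) ∧
    ∀ v, br h v = 0 → adm (v + act x v) * adm (v + act x v) = adm (v + act x v) → act x v = v := by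
  obtain ⟨c, hc⟩ := hc
  have H' := H.conj c⁻¹
  rw [inv_inv] at H'
  obtain ⟨h1, h2⟩ := ef_dz hζ (mx_of_semi hc) H'
  have h3 : ∀ v, act (c⁻¹ * x * c) (act c⁻¹ v) = act c⁻¹ (act x v) := fun v => by
    rw [← act_mul, mul_inv_cancel_right, act_mul]
  refine ⟨fun k hk => ?_, fun v hv hd => ?_⟩
  · obtain ⟨e, e1, e2, e3, e4⟩ := h1 k hk
    refine ⟨act c e, fun h0 => e1 (act_eq_zero h0), act_injective c⁻¹ ?_, act_injective c⁻¹ ?_, fun v v1 v2 => ?_⟩
    · rw [← h3, act_smul, act_inv, e2]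
    · rw [act_br, act_inv, e3, act_zero]
    · obtain ⟨a, ha⟩ := e4 (act c⁻¹ v) (by rw [h3, v1, act_smul]) (by rw [← act_br, v2, act_zero])
      exact ⟨a, by rw [← act_smul, ← ha, act_inv']⟩
  · apply act_injective c⁻¹
    rw [← h3]
    refine h2 _ (by rw [← act_br, hv, act_zero]) ?_
    rw [h3, ← act_add, adm_act]
    calc mx c⁻¹ * adm (v + act x v) * mx c⁻¹⁻¹ * (mx c⁻¹ * adm (v + act x v) * mx c⁻¹⁻¹)
        = mx c⁻¹ * (adm (v + act x v) * (mx c⁻¹⁻¹ * mx c⁻¹) * adm (v + act x v)) * mx c⁻¹⁻¹ := by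
          simp only [Matrix.mul_assoc]
      _ = _ := by rw [mx_inv_mul, Matrix.mul_one, hd]

/-- the vectors which are fixed by `y` and `z` commute with `h` -/
theorem cen_all (hζ : IsPrimitiveRoot ζ 3) (hc : Cj x ζ (Pi.single 7 1)) (H : Hx x h) {y z u w : G8 K}
    (hcom : ∀ g ∈ [y, z, u, w], Commute g x ∧ act g h = h) (hy : y * u = u * (y * y)) (hz : z * w = w * (z * z))
    {U : Submodule K (L8 K)} (hU : ∀ v ∈ U, act x v = v ∧ act y v = v ∧ act z v = v)
    (hd : ev (LK K (y * z)) 1 ≤ finrank K ↥U + 2) {v : L8 K} (h1 : act y v = v) (h2 : act z v = v) : br h v = 0 := by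
  have hl := (ef hζ hc H).1
  have k1 : ∀ k : ℤ, k = 2 ∨ k = -2 → ∃ e : L8 K, e ≠ 0 ∧ act x e = ζ ^ k • e ∧ br h e = 0 ∧ act (y * z) e = e := by
    intro k hk
    obtain ⟨e, e1, e2, e3, e4⟩ := hl k hk
    have h3 : ∀ g ∈ [y, z, u, w], ∃ c : K, act g e = c • e := fun g hg =>
      e4 _ (by rw [← act_mul, ← (hcom g hg).1.eq, act_mul, e2, act_smul]) (by
        conv_lhs => rw [← (hcom g hg).2]
        rw [← act_br, e3, act_zero])
    refine ⟨e, e1, e2, e3, ?_⟩
    rw [act_mul, line_fix e1 (h3 z (by simp)) (h3 w (by simp)) hz, line_fix e1 (h3 y (by simp)) (h3 u (by simp)) hy]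
  obtain ⟨e, e1, e2, e3, e4⟩ := k1 2 (Or.inl rfl)
  obtain ⟨f, f1, f2, f3, f4⟩ := k1 (-2) (Or.inr rfl)
  have h0 := hζ.ne_zero (by norm_num)
  have z1 : ∀ a b : ℤ, ¬ 3 ∣ a - b → ζ ^ a - ζ ^ b ≠ 0 := fun a b hab h3 => hab (by
    rwa [sub_eq_zero, ← div_eq_one_iff_eq (zpow_ne_zero _ h0), ← zpow_sub₀ h0, hζ.zpow_eq_one_iff_dvd] at h3)
  let E : Submodule K (L8 K) := Module.End.eigenspace (LK K (y * z)) 1
  have mE : ∀ v, v ∈ E ↔ act (y * z) v = v := fun v => by
    rw [Module.End.mem_eigenspace_iff, one_smul, LK_apply]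
  let N : Submodule K (L8 K) := E ⊓ LinearMap.ker (Matrix.toLin' (adm h))
  have mN : ∀ v, v ∈ N ↔ act (y * z) v = v ∧ br h v = 0 := fun v => and_congr (mE v) Iff.rfl
  let M : Module.End K (L8 K) := (LK K x - ζ ^ (2 : ℤ) • 1) * (LK K x - ζ ^ (0 : ℤ) • 1)
  have mM : ∀ (k : ℤ) v, act x v = ζ ^ k • v → M v = ((ζ ^ k - ζ ^ (2 : ℤ)) * (ζ ^ k - ζ ^ (0 : ℤ))) • v := fun k v hv => by
    show act x (act x v - ζ ^ (0 : ℤ) • v) - ζ ^ (2 : ℤ) • (act x v - ζ ^ (0 : ℤ) • v) = _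
    rw [hv, ← sub_smul, act_smul, hv, smul_smul, smul_smul, ← sub_smul]
    congr 1
    ring
  have l1 : U < N ⊓ LinearMap.ker M := by
    refine lt_of_le_of_ne (fun v hv => ?_) fun h3 => ?_
    · obtain ⟨v1, v2, v3⟩ := hU v hv
      refine ⟨(mN v).2 ⟨by rw [act_mul, v3, v2], H.cen v v1⟩, ?_⟩
      show M v = 0
      rw [mM 0 v (by rw [zpow_zero, one_smul, v1]), sub_self, mul_zero, zero_smul]
    · have h4 : e ∈ U := by
        rw [h3]
        refine ⟨(mN e).2 ⟨e4, e3⟩, ?_⟩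
        show M e = 0
        rw [mM 2 e e2, sub_self, zero_mul, zero_smul]
      have h5 := (hU e h4).1
      rw [e2, ← sub_eq_zero] at h5
      nth_rewrite 2 [← one_smul K e] at h5
      rw [← sub_smul, smul_eq_zero, ← zpow_zero ζ] at h5
      exact h5.elim (z1 2 0 (by norm_num)) e1
  have l2 : N ⊓ LinearMap.ker M < N := by
    refine lt_of_le_of_ne inf_le_left fun h3 => ?_
    have h4 : f ∈ N ⊓ LinearMap.ker M := by
      rw [h3]
      exact (mN f).2 ⟨f4, f3⟩
    have h5 : M f = 0 := h4.2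
    rw [mM (-2) f f2, smul_eq_zero, mul_eq_zero] at h5
    exact h5.elim (fun h6 => h6.elim (z1 _ _ (by norm_num)) (z1 _ _ (by norm_num))) f1
  have l3 := Submodule.finrank_lt_finrank_of_lt l1
  have l4 := Submodule.finrank_lt_finrank_of_lt l2
  have l5 : N = E := Submodule.eq_of_le_of_finrank_le inf_le_left (hd.trans (by omega))
  have l6 : v ∈ N := by
    rw [l5, mE, act_mul, h2, h1]
  exact ((mN v).1 l6).2

theorem idem_add {a b : L8 K} (ha : adm a * adm a = adm a) (hb : adm b * adm b = adm b) (hab : br a b = 0) :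
    adm (a + b) * adm (a + b) = adm (a + b) := by
  have h1 := adm_br a b
  rw [hab, adm_zero, eq_comm, sub_eq_zero] at h1
  rw [adm_add, Matrix.add_mul, Matrix.mul_add, Matrix.mul_add, ha, hb, ← h1, add_assoc, ← add_assoc (adm a * adm b),
    add_self K, zero_add]

end

section

variable {F : Type u} [Field F] [Finite F] [CharP F 2] {n : ℕ} [NeZero n] {ψ : Alt n →* G8 (Kb F)}

theorem act_hx {x x' g : G8 (Kb F)} (hx : x' ^ 3 = 1) (hd : ev (LK (Kb F) x') 1 = 92 ∨ ev (LK (Kb F) x') 1 = 134)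
    {h h' : L8 (Kb F)} (H : Hx x h) (H' : Hx x' h') (e : g * x = x' * g) : act g h = h' := by
  have h1 := H.conj g
  rw [e, mul_inv_cancel_right] at h1
  exact hx_unique hx hd h1 H'

/-- **the case (92, 134)** -/
theorem case_a (hn : 8 ≤ n) (hψ : NoFx ψ) (h3 : ev (LK (Kb F) (ψ (P n x3))) 1 = 92)
    (h33 : ev (LK (Kb F) (ψ (P n x33))) 1 = 134) : False := by
  let ρ : Representation (Kb F) (Alt n) (L8 (Kb F)) := (LK (Kb F)).comp ψ
  have hx : ψ (P n x3) ^ 3 = 1 := by rw [← map_pow, P_pow_one hn (by decide) (by decide), map_one]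
  have hy : ψ (P n y3) ^ 3 = 1 := by rw [← map_pow, P_pow_one hn (by decide) (by decide), map_one]
  have hy' : ev (LK (Kb F) (ψ (P n y3))) 1 = 92 :=
    (evP ρ hn (a := y3) (r := x3) [(0, 4), (4, 1), (1, 5), (2, 3)] (by decide)).trans h3
  obtain ⟨h, H, H'⟩ := d7_pair hx hy (Commute.map (P_eqP hn (by decide)) ψ) h3
    (by rw [← map_mul, P_mul hn (c := x33) (by decide), h33]) (by
      rw [← map_inv, ← map_mul, P_inv hn (b := [(4, 5), (3, 4)]) (by decide),
        P_mul hn (c := [(0, 1), (1, 2), (4, 5), (3, 4)]) (by decide)]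
      exact (evP ρ hn (r := x33) [(3, 4), (6, 7)] (by decide)).trans h33)
  refine H.ne (hψ h (gen_top hn ((stab h).comap ψ) [0, 1, 2] 6 7 (by decide) (fun a ha => ?_) fun k hk => ?_))
  · exact act_hx hx (Or.inl h3) H H ((comm_of_fix hn (by decide) ha).map ψ).eq
  · refine act_hx hy (Or.inl hy') H' H' (Commute.map (P_eqP hn ?_) ψ).eq
    revert k
    decide

/-- **the case (134, 92) in degree at least 11** -/
theorem case_d (hn : 11 ≤ n) (hψ : NoFx ψ) (h3 : ev (LK (Kb F) (ψ (P n x3))) 1 = 134)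
    (hd : ev (LK (Kb F) (ψ (P n x15))) 1 ≤ finrank (Kb F) ↥(inv ((LK (Kb F)).comp ψ) (Tg n [x3, y3, z5])) + 2) : False := by
  have := charKb (F := F)
  let ρ : Representation (Kb F) (Alt n) (L8 (Kb F)) := (LK (Kb F)).comp ψ
  obtain ⟨ζ, hζ⟩ := Inf.exists_root (F := F) (N := 3) (by exact_mod_cast three_ne)
  have hx : ψ (P n x3) ^ 3 = 1 := by rw [← map_pow, P_pow_one hn (by decide) (by decide), map_one]
  have hx' : ψ (P n [(0, 1), (1, 3)]) ^ 3 = 1 := by rw [← map_pow, P_pow_one hn (by decide) (by decide), map_one]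
  have h3' : ev (LK (Kb F) (ψ (P n [(0, 1), (1, 3)]))) 1 = 134 :=
    (evP ρ hn (r := x3) [(2, 3), (3, 4)] (by decide)).trans h3
  have hc := cj_134 three_ne hζ hx h3
  obtain ⟨h, H⟩ := exists_hx hx (Or.inr h3)
  obtain ⟨h', H'⟩ := exists_hx hx' (Or.inr h3')
  have c1 : ∀ {g : SW}, eqP 11 g x3 x3 g = true → act (ψ (P n g)) h = h := fun hg =>
    act_hx hx (Or.inr h3) H H (Commute.map (P_eqP hn hg) ψ).eq
  have c2 : ∀ {g : SW}, eqP 11 g [(0, 1), (1, 3)] [(0, 1), (1, 3)] g = true → act (ψ (P n g)) h' = h' := fun hg =>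
    act_hx hx' (Or.inr h3') H' H' (Commute.map (P_eqP hn hg) ψ).eq
  have c3 : ∀ {a b c d : SW}, eqP 11 a b c d = true → ∀ v, act (ψ (P n a)) (act (ψ (P n b)) v) =
      act (ψ (P n c)) (act (ψ (P n d)) v) := fun e v => by
    rw [← act_mul, ← act_mul, ← map_mul, ← map_mul, P_eqP hn e]
  have c4 : ∀ v, act (ψ (P n [])) v = v := fun v => by rw [P_nil, map_one, act_one]
  have c5 : ∀ (a b c d : SW), eqP 11 a b c d = true → eqP 11 d [(0, 1), (1, 3)] [(0, 1), (1, 3)] d = true →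
      act (ψ (P n a)) (act (ψ (P n b)) h') = act (ψ (P n c)) h' := fun a b c d e e' => by rw [c3 e, c2 e']
  have k1 : br h (h' + act (ψ (P n y3)) h' + act (ψ (P n [(4, 5), (3, 4)])) h') = 0 := by
    refine cen_all hζ hc H (y := ψ (P n y3)) (z := ψ (P n z5)) (u := ψ (P n [(3, 4), (6, 7)]))
      (w := ψ (P n [(3, 4), (7, 9), (9, 10), (10, 8)])) (fun g hg => ?_) ?_ ?_ (U := inv ρ (Tg n [x3, y3, z5]))
      (fun v hv => ?_) ?_ ?_ ?_
    · simp only [List.mem_cons, List.not_mem_nil, or_false] at hg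
      rcases hg with rfl | rfl | rfl | rfl <;> exact ⟨Commute.map (P_eqP hn (by decide)) ψ, c1 (by decide)⟩
    · rw [← map_mul, ← map_mul, ← map_mul, P_mul hn (a := y3) (b := y3) (c := y3 ++ y3) (by decide)]
      exact congrArg ψ (P_eqP hn (by decide))
    · rw [← map_mul, ← map_mul, ← map_mul, P_mul hn (a := z5) (b := z5) (c := z5 ++ z5) (by decide)]
      exact congrArg ψ (P_eqP hn (by decide))
    · rw [mem_Tg] at hv
      exact ⟨hv x3 (by simp), hv y3 (by simp), hv z5 (by simp)⟩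
    · rw [← map_mul, P_mul hn (c := y3 ++ z5) (by decide)]
      exact (evP ρ hn (r := x15) [(0, 4), (4, 9), (1, 5), (5, 10), (2, 3), (3, 8)] (by decide)).le.trans hd
    · rw [act_add, act_add, c5 y3 y3 [(4, 5), (3, 4)] [] (by decide) (by decide),
        c5 y3 [(4, 5), (3, 4)] [] [] (by decide) (by decide), c4]
      abel
    · rw [act_add, act_add, c5 z5 y3 y3 z5 (by decide) (by decide),
        c5 z5 [(4, 5), (3, 4)] [(4, 5), (3, 4)] z5 (by decide) (by decide), c2 (g := z5) (by decide)]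
  have k2 := congrArg (act (ψ (P n [(5, 6), (6, 7)]))) k1
  have k3 := congrArg (act (ψ (P n [(4, 6), (6, 7)]))) k1
  rw [act_br, c1 (by decide), act_zero, act_add, act_add, c2 (g := [(5, 6), (6, 7)]) (by decide),
    c5 _ y3 y3 [(4, 6), (6, 7)] (by decide) (by decide),
    c5 _ [(4, 5), (3, 4)] [(3, 6), (6, 8)] [(4, 8), (8, 6), (6, 7), (7, 5)] (by decide) (by decide)] at k2
  rw [act_br, c1 (by decide), act_zero, act_add, act_add, c2 (g := [(4, 6), (6, 7)]) (by decide),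
    c5 _ y3 [(3, 6), (6, 8)] [(4, 5), (5, 8), (8, 6), (6, 7)] (by decide) (by decide),
    c5 _ [(4, 5), (3, 4)] [(4, 5), (3, 4)] [(5, 6), (6, 7)] (by decide) (by decide)] at k3
  simp only [br_add_right] at k1 k2 k3
  have k4 : br h h' = 0 := by
    have h2 := add_self (Kb F) (W := L8 (Kb F))
    linear_combination (exp := 1) k1 + k2 + k3 - h2 (br h h') - h2 (br h (act (ψ (P n y3)) h')) -
      h2 (br h (act (ψ (P n [(4, 5), (3, 4)])) h')) - h2 (br h (act (ψ (P n [(3, 6), (6, 8)])) h'))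
  have k5 := congrArg (act (ψ (P n [(0, 3), (3, 2)]))) k4
  have k6 : act (ψ (P n [(0, 3), (3, 2)])) h' = act (ψ (P n x3)) h' := by
    rw [← c5 [(0, 3), (3, 2)] [] x3 [(0, 3), (3, 1)] (by decide) (by decide), c4]
  rw [act_br, act_zero, k6, act_hx hx' (Or.inr h3') H.inv H' (by
      rw [← map_inv, P_inv hn (b := [(1, 2), (0, 1)]) (by decide), ← map_mul, ← map_mul]
      exact congrArg ψ (P_eqP hn (by decide)))] at k5
  have k7 := (ef hζ hc H).2 h' k4 (idem_add H'.idem (H'.conj _).idem k5)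
  refine H'.ne (hψ h' (gen_top hn ((stab h').comap ψ) [0, 1, 3] 4 5 (by decide) (fun a ha => ?_) fun k hk => ?_))
  · exact act_hx hx' (Or.inr h3') H' H' ((comm_of_fix hn (by decide) ha).map ψ).eq
  · have k8 : ∀ c : SW, eqP 11 [(4, 5), (4, k)] c c [(4, 5), (4, 2)] = true → act (ψ (P n c)) h' = h' →
        act (ψ (P n [(4, 5), (4, k)])) h' = h' := fun c e e' => by
      have h1 := c5 _ _ _ _ e (by decide)
      rwa [e'] at h1
    simp only [List.mem_cons, List.not_mem_nil, or_false] at hk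
    rcases hk with rfl | rfl | rfl
    · exact k8 x3 (by decide) k7
    · refine k8 (x3 ++ x3) (by decide) ?_
      rw [← c5 x3 x3 _ [] (by decide) (by decide), k7, k7]
    · refine k8 [(0, 2), (2, 3)] (by decide) ?_
      have h1 := c5 [(0, 2), (2, 3)] x3 [] [(0, 1), (1, 3)] (by decide) (by decide)
      rwa [k7, c4] at h1

end

end Cfsg.Agent.E8A.Two
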