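import Cfsg.Agent.E8A.Two.C7
import Cfsg.Agent.E8A.Two.El

/-!
# The inequality for `A₇`-modules in characteristic 2 (helper44)
-/

set_option autoImplicit false
set_option maxRecDepth 100000

namespace Cfsg.Agent.E8A.Two.Mk

open Module Equiv Equiv.Perm
open Cfsg.Agent.R2.T1.Odd Cfsg.Agent.R2.T1.Msk Cfsg.Agent.R2.T1.Art
open Cfsg.Agent.H952.F4 (ev)

/-- the elements -/
def e21 : List (List ℕ) := [[], [0], [1], [0, 0], [0, 1], [1, 0], [1, 1], [0, 0, 0], [0, 1, 0], [0, 1, 1], [1, 0, 0], [1, 0, 1], [1, 1, 0], [0, 0, 0, 0], [0, 1, 0, 0], [0, 1, 0, 1], [0, 1, 1, 0], [1, 0, 0, 0], [1, 0, 1, 0], [0, 0, 0, 0, 0], [1, 0, 1, 0, 1]]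

/-- the classes -/
def d21 : List (ℕ × SW) :=
  [(0, []),
   (1, []),
   (3, [(0, 4), (4, 6)]),
   (1, [(1, 2), (2, 4), (3, 6), (6, 5)]),
   (3, [(2, 3), (4, 5)]),
   (3, [(1, 2), (2, 6), (6, 5), (5, 3)]),
   (3, [(0, 1), (1, 4), (4, 5), (5, 6)]),
   (2, [(1, 4), (4, 2), (3, 5), (5, 6)]),
   (3, [(0, 6), (6, 4), (4, 3), (2, 5)]),
   (3, [(0, 4), (4, 1), (1, 3), (2, 6)]),
   (3, [(1, 4), (4, 6), (6, 3), (2, 5)]),
   (3, [(0, 5), (5, 3), (2, 6), (6, 4)]),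
   (3, [(0, 3), (1, 2), (2, 5), (5, 6)]),
   (1, [(1, 4), (4, 2), (3, 5), (5, 6)]),
   (3, [(0, 3), (3, 1), (1, 4), (2, 6)]),
   (3, [(1, 3), (3, 2)]),
   (3, [(1, 5), (5, 6), (6, 3), (2, 4)]),
   (3, [(0, 3), (1, 5), (5, 4), (4, 6)]),
   (3, [(1, 6), (6, 5)]),
   (2, [(1, 2), (2, 4), (3, 6), (6, 5)]),
   (2, [])]

theorem cG21 : chkG 7 [g7.getD 0 [], g7.getD 1 []] e21 = true := by decide +kernel

theorem cK21 : chkC 7 [g7.getD 0 [], g7.getD 1 []] e21 [] [[], s7, s7i, x33] d21 = true := by decide +kernel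

theorem cn21 : (List.range 4).map (fun k => (d21.map Prod.fst).count k) = [1, 3, 3, 14] := by decide +kernel

theorem odd_ne (F : Type*) [Field F] [CharP F 2] {k : ℕ} (h : ¬ 2 ∣ k) : (k : F) ≠ 0 := fun h0 =>
  h ((CharP.cast_eq_zero_iff F 2 k).1 h0)

variable {n : ℕ} [NeZero n] {F : Type*} [Field F] [Finite F] [CharP F 2] {W : Type*} [AddCommGroup W] [Module F W]
  [FiniteDimensional F W] (ρ : Representation F ↥(alternatingGroup (Fin n)) W)

/-- **the inequality for `A₇`** -/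
theorem i7 (hn : 7 ≤ n) : 3 * ev (ρ (P n c5)) 1 + 2 * ev (ρ (P n s7)) 1 + finrank F W ≤ 6 * ev (ρ (P n x33)) 1 := by
  have h1 := le2 ρ hn cA7 cB7 cCA7 cCB7 cD7 (by decide) (by decide +kernel) (by decide) (by decide +kernel) h17 h27 h37 h47
  have h2 := dimC hn cG21 cK21 (N := 21) (K := 4) rfl rfl (odd_ne F (by norm_num)) cn21 ρ
  simp only [Finset.sum_range_succ, Finset.sum_range_zero, List.getD_cons_zero, List.getD_cons_succ, P_nil] at h2
  rw [om_one, om_prime ρ (r := 7) (by norm_num) (orderOf_P (l := s7) hn (by decide +kernel)),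
    om_prime ρ (r := 7) (by norm_num) (orderOf_P (l := s7i) hn (by decide +kernel)),
    om_prime ρ Nat.prime_three (orderOf_P (l := x33) hn (by decide +kernel)),
    ← P_inv hn (a := s7) (b := s7i) (by decide), ev_inv] at h2
  rw [show A7.gT = [c5] from rfl, show B7.gT = [s7] from rfl, fr_one, fr_one, fr_one,
    evP ρ hn (a := g7.getD 1 []) (r := x33) [(0, 4), (4, 6)] (by decide)] at h1
  generalize finrank F ↥(inv ρ (Tg n [g7.getD 0 [], g7.getD 1 []])) = f at h1 h2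
  have h3 : (3 * f + finrank F W : ℚ) = ev (ρ (P n s7)) 1 + 3 * ev (ρ (P n x33)) 1 := by
    push_cast at h2
    linarith
  have h4 : 3 * f + finrank F W = ev (ρ (P n s7)) 1 + 3 * ev (ρ (P n x33)) 1 := by exact_mod_cast h3
  omega

end Cfsg.Agent.E8A.Two.Mk
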