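import Cfsg.Agent.E8A.Asm.Iface

/-!
# S5772 in characteristic 2, degree at least 8: the boxes (helper44)
-/

set_option autoImplicit false

namespace Cfsg.Agent.E8A.Two

open Cfsg Cfsg.Lie Module
open Cfsg.Agent.H952.F4 (MaxAlt ev)

universe u

/-- the dimension of the fixed space of the elements with cycle type `c` is `d` -/
def Dm {F : Type u} [Field F] {n : ℕ} (φ : Alt n →* G8 F) (c : Multiset ℕ) (d : ℕ) : Prop :=
  ∀ a : Alt n, (a : Equiv.Perm (Fin n)).cycleType = c → ev (LK F (φ a)) 1 = d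

/-- a case: the dimensions of the fixed spaces of the elements of type `3`, `3²`, `5` are `d`, `d'`, `d''` -/
def TWO (d d' d'' : ℕ) : Prop := ∀ (F : Type u) [Field F] [Finite F] [CharP F 2] (H : Subgroup (G8 F)) (n : ℕ)
  (φ : Alt n →* G8 F), MaxAlt H n φ → 8 ≤ n → n ≤ 10 → NoFx φ → Dm φ {3} d → Dm φ {3, 3} d' → Dm φ {5} d'' → False

/-- **TB**: 3-cycles with centralizer `A₈` -/
def TB : Prop := TWO.{u} 80 92 48

/-- **TC**: 3-cycles with centralizer `D₇T₁`, products of two with centralizer `A₈` -/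
def TC : Prop := TWO.{u} 92 80 48

/-- **TD**: 3-cycles with centralizer `E₇T₁` -/
def TD : Prop := TWO.{u} 134 92 68

/-- **ALL2**: characteristic 2, degree at least 8. -/
def ALL2 : Prop := ∀ (F : Type u) [Field F] [Finite F] [CharP F 2] (H : Subgroup (G8 F)) (n : ℕ) (φ : Alt n →* G8 F),
  MaxAlt H n φ → 8 ≤ n → False

/-- **FRAME** (helper44) -/
def FRAME : Prop := TB.{u} → TC.{u} → TD.{u} → ALL2.{u}

end Cfsg.Agent.E8A.Two
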