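import Cfsg.Agent.R2.T1.T2p.Msk

/-!
# Certificates for inequalities between dimensions of fixed spaces in characteristic 2 (helper44)

* `Tr` : sums of words in Horner form, `Tr.ev` : the action on masks, `Tr.op` : the operator;
* `Dt`, `Dt.chk` : generators of a subgroup, elements of it, representatives of the cosets, the tables of the action;
* `le1` : `f(A) ≤ f(C)`; `le2` : `f(A) + f(B) ≤ f(C) + f(D)`.
-/

set_option autoImplicit false
set_option maxRecDepth 100000

namespace Cfsg.Agent.E8A.Two.Mk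

open Module Equiv Equiv.Perm
open Cfsg.Agent.R2.T1.Odd Cfsg.Agent.R2.T1.Msk

/-- lists of transpositions -/
abbrev SW : Type := List (ℕ × ℕ)

/-- sums of words -/
inductive Tr : Type
  | nil : Tr
  | one (s : Tr) : Tr
  | ap (i : ℕ) (c s : Tr) : Tr

/-- the action on masks -/
def Tr.ev (T : List SW) (a : ℕ) : Tr → ℕ
  | .nil => 0
  | .one s => Nat.xor a (Tr.ev T a s)
  | .ap i c s => Nat.xor (stp (T.getD i []) (Tr.ev T a c)) (Tr.ev T a s)

theorem Tr.ev_realised : True := by have := @Tr.ev.eq_def; trivial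

/-- the letters are in the range -/
def Tr.ok (N : ℕ) : Tr → Bool
  | .nil => true
  | .one s => Tr.ok N s
  | .ap i c s => Nat.blt i N && Tr.ok N c && Tr.ok N s

theorem Tr.ok_realised : True := by have := @Tr.ok.eq_def; trivial

/-- the data of a permutation module -/
structure Dt where
  gT : List SW
  zw : List (List ℕ)
  reps : List SW
  tab : List SW

/-- the check of the table of one generator -/
def Dt.row (m : ℕ) (D : Dt) (g t : SW) : Bool :=
  Nat.beq D.reps.length t.length && (D.reps.zip t).all fun y => Nat.blt y.2.1 D.reps.length &&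
    cd m (g ++ y.1) == cd m (D.reps.getD y.2.1 [] ++ wd D.gT (D.zw.getD y.2.2 []))

/-- the check of the data -/
def Dt.chk (m : ℕ) (gens : List SW) (D : Dt) : Bool :=
  gens.all (vl m) && D.gT.all (vl m) && D.reps.all (vl m) && Nat.beq gens.length D.tab.length &&
    D.reps.head? == some [] && (gens.zip D.tab).all fun x => D.row m x.1 x.2

/-- the mask is invariant under the elements of `gC`, which are the words `cw` -/
def okC (m : ℕ) (gens tab gC : List SW) (cw : List (List ℕ)) (a : ℕ) : Bool :=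
  Nat.beq gC.length cw.length && (gC.zip cw).all fun x => vl m x.1 && (x.2.all fun i => Nat.blt i gens.length) &&
    cd m x.1 == cd m (wd gens x.2) && Nat.beq (stps tab x.2 a) a

section act
variable {n m : ℕ} [NeZero n] {F : Type*} [Field F] {W : Type*} [AddCommGroup W] [Module F W]
  (ρ : Representation F ↥(alternatingGroup (Fin n)) W)

/-- the operator -/
noncomputable def Tr.op (gens : List SW) : Tr → Module.End F W
  | .nil => 0
  | .one s => 1 + Tr.op gens s
  | .ap i c s => ρ (P n (gens.getD i [])) * Tr.op gens c + Tr.op gens s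

theorem Tr.op_realised : True := by have := @Tr.op.eq_def.{0, 0}; trivial

/-- the translates -/
noncomputable def gw (D : Dt) (v : W) : List W := D.reps.map fun r => ρ (P n r) v

theorem sumM_lin (l : List SW) (a : ℕ) : ∃ f : Module.End F W, ∀ v, f v = sumM (l.map fun r => ρ (P n r) v) a := by
  induction l generalizing a with
  | nil => exact ⟨0, fun _ => rfl⟩
  | cons r l ih =>
    obtain ⟨f, hf⟩ := ih (a / 2)
    refine ⟨(if a % 2 = 1 then ρ (P n r) else 0) + f, fun v => ?_⟩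
    show _ = (if a % 2 = 1 then ρ (P n r) v else 0) + sumM (l.map fun r => ρ (P n r) v) (a / 2)
    rw [LinearMap.add_apply, hf]
    split_ifs <;> rfl

variable {ρ} {gens : List SW} {D : Dt}

theorem chk_spec (h : D.chk m gens = true) : gens.all (vl m) = true ∧ D.gT.all (vl m) = true ∧
    D.reps.all (vl m) = true ∧ gens.length = D.tab.length ∧ D.reps.head? = some [] ∧
    ∀ x ∈ gens.zip D.tab, D.reps.length = x.2.length ∧ ∀ y ∈ D.reps.zip x.2, y.2.1 < D.reps.length ∧
      cd m (x.1 ++ y.1) = cd m (D.reps.getD y.2.1 [] ++ wd D.gT (D.zw.getD y.2.2 [])) := by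
  unfold Dt.chk Dt.row at h
  simp only [Bool.and_eq_true, List.all_eq_true, beq_iff_eq, Nat.beq_eq, Nat.blt_eq] at h
  obtain ⟨⟨⟨⟨⟨h1, h2⟩, h3⟩, h4⟩, h5⟩, h6⟩ := h
  exact ⟨List.all_eq_true.2 h1, List.all_eq_true.2 h2, List.all_eq_true.2 h3, h4, h5, h6⟩

theorem gen_spec (hm : m ≤ n) (h2 : ∀ w : W, w + w = 0) (h : D.chk m gens = true) {v : W}
    (hv : v ∈ inv ρ (Tg n D.gT)) {i : ℕ} (hi : i < gens.length) (a : ℕ) :
    ρ (P n (gens.getD i [])) (sumM (gw ρ D v) a) = sumM (gw ρ D v) (stp (D.tab.getD i []) a) := by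
  obtain ⟨h1, hz, hr, hl, -, hx⟩ := chk_spec h
  have hi' : i < D.tab.length := hl ▸ hi
  have hmem : (gens.getD i [], D.tab.getD i []) ∈ gens.zip D.tab := by
    rw [List.getD_eq_getElem _ _ hi, List.getD_eq_getElem _ _ hi', ← List.getElem_zip (h := by
      rw [List.length_zip]; omega)]
    exact List.getElem_mem _
  obtain ⟨k1, k2⟩ := hx _ hmem
  refine stp_spec h2 (gw ρ D v) (ρ (P n (gens.getD i []))).toAddMonoidHom (gw ρ D v) (D.tab.getD i [])
    (by rw [gw, List.length_map]; exact k1) ?_ a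
  intro e he
  rw [gw, List.zip_map_left] at he
  obtain ⟨y, hy, rfl⟩ := List.mem_map.1 he
  obtain ⟨j1, j2⟩ := k2 y hy
  have hy1 : vl m y.1 = true := List.all_eq_true.1 hr _ (List.of_mem_zip hy).1
  have hgi : vl m (gens.getD i []) = true := vl_getD h1 i
  have hrj : vl m (D.reps.getD y.2.1 []) = true := vl_getD hr _
  show ρ (P n (gens.getD i [])) (ρ (P n y.1) v) = (gw ρ D v).getD y.2.1 0
  have e1 : (gw ρ D v).getD y.2.1 0 = ρ (P n (D.reps.getD y.2.1 [])) v := by
    rw [gw, List.getD_eq_getElem _ _ (by rw [List.length_map]; exact j1), List.getElem_map, List.getD_eq_getElem _ _ j1]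
  rw [e1, ← Module.End.mul_apply, ← map_mul, ← P_append hm hgi hy1,
    (P_eq_iff hm (vl_append hgi hy1) (vl_append hrj (vl_wd hz _))).2 j2, P_append hm hrj (vl_wd hz _), map_mul,
    Module.End.mul_apply, hv _ (P_wd_mem hm hz _)]

theorem word_spec (hm : m ≤ n) (h2 : ∀ w : W, w + w = 0) (h : D.chk m gens = true) {v : W}
    (hv : v ∈ inv ρ (Tg n D.gT)) {w : List ℕ} (hw : (w.all fun i => Nat.blt i gens.length) = true) (a : ℕ) :
    ρ (P n (wd gens w)) (sumM (gw ρ D v) a) = sumM (gw ρ D v) (stps D.tab w a) := by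
  have h1 := (chk_spec h).1
  induction w with
  | nil =>
    rw [wd_nil, P_nil, map_one]
    rfl
  | cons i w ih =>
    rw [List.all_cons, Bool.and_eq_true, Nat.blt_eq] at hw
    rw [wd_cons, P_append hm (vl_getD h1 i) (vl_wd h1 w), map_mul, Module.End.mul_apply, ih hw.2,
      gen_spec hm h2 h hv hw.1]
    rfl

theorem ev_spec (hm : m ≤ n) (h2 : ∀ w : W, w + w = 0) (h : D.chk m gens = true) {v : W}
    (hv : v ∈ inv ρ (Tg n D.gT)) (a : ℕ) {t : Tr} (ht : t.ok gens.length = true) :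
    t.op ρ gens (sumM (gw ρ D v) a) = sumM (gw ρ D v) (t.ev D.tab a) := by
  induction t with
  | nil => exact (sumM_zero _).symm
  | one s ih =>
    show (1 + s.op ρ gens) _ = sumM (gw ρ D v) (a ^^^ s.ev D.tab a)
    rw [sumM_xor h2, LinearMap.add_apply, ih ht]
    rfl
  | ap i c s ihc ihs =>
    have ht' : (Nat.blt i gens.length && c.ok gens.length && s.ok gens.length) = true := ht
    rw [Bool.and_eq_true, Bool.and_eq_true, Nat.blt_eq] at ht'
    show (ρ (P n (gens.getD i [])) * c.op ρ gens + s.op ρ gens) _ =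
      sumM (gw ρ D v) (stp (D.tab.getD i []) (c.ev D.tab a) ^^^ s.ev D.tab a)
    rw [sumM_xor h2, LinearMap.add_apply, Module.End.mul_apply, ihc ht'.1.2, ihs ht'.2, gen_spec hm h2 h hv ht'.1.1]

theorem sumM_one' (h : D.chk m gens = true) (v : W) : sumM (gw ρ D v) 1 = v := by
  obtain ⟨r, hr⟩ := List.head?_eq_some_iff.1 (chk_spec h).2.2.2.2.1
  have h1 := sumM_pow (gw ρ D v) 0
  rw [pow_zero] at h1
  rw [h1, gw, hr, List.map_cons, List.getD_cons_zero, P_nil, map_one]
  rfl

theorem mem_okC (hm : m ≤ n) (h2 : ∀ w : W, w + w = 0) (h : D.chk m gens = true) {v : W}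
    (hv : v ∈ inv ρ (Tg n D.gT)) {gC : List SW} {cw : List (List ℕ)} {a : ℕ} (hC : okC m gens D.tab gC cw a = true) :
    sumM (gw ρ D v) a ∈ inv ρ (Tg n gC) := by
  unfold okC at hC
  rw [Bool.and_eq_true, Nat.beq_eq] at hC
  refine mem_inv_closure.2 ?_
  rintro _ ⟨g, hg, rfl⟩
  obtain ⟨i, hi, rfl⟩ := List.getElem_of_mem hg
  have hi' : i < cw.length := hC.1 ▸ hi
  have h3 := List.all_eq_true.1 hC.2 (gC[i], cw[i]) (by
    rw [← List.getElem_zip (h := by rw [List.length_zip]; omega)]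
    exact List.getElem_mem _)
  simp only [Bool.and_eq_true, beq_iff_eq, Nat.beq_eq] at h3
  rw [(P_eq_iff hm h3.1.1.1 (vl_wd (chk_spec h).1 _)).2 h3.1.2, word_spec hm h2 h hv h3.1.1.2, h3.2]

variable (F) in
theorem add_self [CharP F 2] (w : W) : w + w = 0 := by
  rw [← two_smul F w, show (2 : F) = 0 from CharP.cast_eq_zero F 2, zero_smul]

variable (ρ) [CharP F 2] [FiniteDimensional F W]

/-- **`f(A) ≤ f(C)`** -/
theorem le1 (hm : m ≤ n) {A : Dt} (hA : A.chk m gens = true) {gC : List SW} {cw : List (List ℕ)} {a : ℕ}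
    (hC : okC m gens A.tab gC cw a = true) {t : Tr} (ht : t.ok gens.length = true) (h : t.ev A.tab a = 1) :
    finrank F ↥(inv ρ (Tg n A.gT)) ≤ finrank F ↥(inv ρ (Tg n gC)) := by
  obtain ⟨f, hf⟩ := sumM_lin ρ A.reps a
  let Φ : ↥(inv ρ (Tg n A.gT)) →ₗ[F] ↥(inv ρ (Tg n gC)) :=
    LinearMap.codRestrict _ (f.domRestrict _) fun v => by
      rw [LinearMap.domRestrict_apply, hf]
      exact mem_okC hm (add_self F) hA v.2 hC
  refine LinearMap.finrank_le_finrank_of_injective (f := Φ) ((injective_iff_map_eq_zero Φ).2 fun v hv => ?_)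
  have h1 : sumM (gw ρ A v) a = 0 := (hf v).symm.trans (congrArg Subtype.val hv)
  have h2 := ev_spec hm (add_self F) hA v.2 a ht
  rw [h1, map_zero, h, sumM_one' hA] at h2
  exact Subtype.ext h2.symm

/-- **`f(A) + f(B) ≤ f(C) + f(D)`** -/
theorem le2 (hm : m ≤ n) {A B : Dt} (hA : A.chk m gens = true) (hB : B.chk m gens = true) {gC gD : List SW}
    {cw dw : List (List ℕ)} {a b e : ℕ} (hCA : okC m gens A.tab gC cw a = true) (hCB : okC m gens B.tab gC cw b = true)
    (hD : okC m gens B.tab gD dw e = true) {s t s' t' : Tr} (hs : s.ok gens.length = true) (ht : t.ok gens.length = true)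
    (hs' : s'.ok gens.length = true) (ht' : t'.ok gens.length = true)
    (h1 : s.ev A.tab (t.ev A.tab a) = 1) (h2 : s.ev B.tab (t.ev B.tab b) = 0)
    (h3 : s'.ev A.tab (t'.ev A.tab a) = 0) (h4 : Nat.xor (s'.ev B.tab (t'.ev B.tab b)) e = 1) :
    finrank F ↥(inv ρ (Tg n A.gT)) + finrank F ↥(inv ρ (Tg n B.gT)) ≤
      finrank F ↥(inv ρ (Tg n gC)) + finrank F ↥(inv ρ (Tg n gD)) := by
  obtain ⟨fa, ha⟩ := sumM_lin ρ A.reps a
  obtain ⟨fb, hb⟩ := sumM_lin ρ B.reps b
  obtain ⟨fe, he⟩ := sumM_lin ρ B.reps e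
  let Φa : ↥(inv ρ (Tg n A.gT)) →ₗ[F] ↥(inv ρ (Tg n gC)) :=
    LinearMap.codRestrict _ (fa.domRestrict _) fun v => by
      rw [LinearMap.domRestrict_apply, ha]
      exact mem_okC hm (add_self F) hA v.2 hCA
  let Φb : ↥(inv ρ (Tg n B.gT)) →ₗ[F] ↥(inv ρ (Tg n gC)) :=
    LinearMap.codRestrict _ (fb.domRestrict _) fun v => by
      rw [LinearMap.domRestrict_apply, hb]
      exact mem_okC hm (add_self F) hB v.2 hCB
  let Φe : ↥(inv ρ (Tg n B.gT)) →ₗ[F] ↥(inv ρ (Tg n gD)) :=
    LinearMap.codRestrict _ (fe.domRestrict _) fun v => by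
      rw [LinearMap.domRestrict_apply, he]
      exact mem_okC hm (add_self F) hB v.2 hD
  let Φ := (Φa.coprod Φb).prod (Φe.comp (LinearMap.snd F ↥(inv ρ (Tg n A.gT)) _))
  rw [← finrank_prod, ← finrank_prod]
  refine LinearMap.finrank_le_finrank_of_injective (f := Φ) ((injective_iff_map_eq_zero Φ).2 ?_)
  rintro ⟨v, w⟩ hv
  have k1 : sumM (gw ρ A v) a + sumM (gw ρ B w) b = 0 := by
    rw [gw, gw, ← ha, ← hb]
    exact congrArg Subtype.val (congrArg Prod.fst hv)
  have k2 : sumM (gw ρ B w) e = 0 := (he w).symm.trans (congrArg Subtype.val (congrArg Prod.snd hv))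
  have k3 := congrArg (fun u => s.op ρ gens (t.op ρ gens u)) k1
  have k4 := congrArg (fun u => s'.op ρ gens (t'.op ρ gens u)) k1
  simp only [map_add, map_zero] at k3 k4
  rw [ev_spec hm (add_self F) hA v.2 _ ht, ev_spec hm (add_self F) hA v.2 _ hs, ev_spec hm (add_self F) hB w.2 _ ht,
    ev_spec hm (add_self F) hB w.2 _ hs, h1, h2, sumM_zero, add_zero, sumM_one' hA] at k3
  rw [ev_spec hm (add_self F) hA v.2 _ ht', ev_spec hm (add_self F) hA v.2 _ hs', ev_spec hm (add_self F) hB w.2 _ ht',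
    ev_spec hm (add_self F) hB w.2 _ hs', h3, sumM_zero, zero_add] at k4
  have k5 := sumM_xor (add_self F) (gw ρ B w) (s'.ev B.tab (t'.ev B.tab b)) e
  have h4' : s'.ev B.tab (t'.ev B.tab b) ^^^ e = 1 := h4
  rw [h4', k4, k2, add_zero, sumM_one' hB] at k5
  exact Prod.ext (Subtype.ext k3) (Subtype.ext k5)

end act

end Cfsg.Agent.E8A.Two.Mk
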